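import Cfsg.Agent.H783.Her.Small
import Cfsg.Agent.H667.HerAct
import Cfsg.Agent.S0245

/-!
# S4247: Hering's theorem and the `p`-part of the order (helper783)

* `her_of` : a semilinear group of degree `n ≥ 3` over a field with `p ^ f` elements which is transitive on the points
  contains `SL(V)`, or the `p`-part of its order is small;
* `lt_of` : the numerical consequence.

The hypotheses `Main`, `AltSix`, `AltSeven`, `Thirteen` are proved in `H50.HerKnown`, see `H783.Her.Full`.
-/

set_option autoImplicit false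
set_option linter.unusedSectionVars false

namespace Cfsg.Agent.H783.Her

open Module

universe u

/-- the determinant over an isomorphic field -/
theorem det_transport {K F V : Type*} [Field K] [Field F] [AddCommGroup V] [Module K V] [Module F V]
    [Module.Finite K V] (φ : K ≃+* F) (hφ : ∀ (c : K) (v : V), c • v = φ c • v)
    (g : V →ₗ[K] V) (g' : V →ₗ[F] V) (h : ∀ v, g' v = g v) : LinearMap.det g' = φ (LinearMap.det g) := by
  let b := Module.finBasis K V
  let b' : Basis (Fin (finrank K V)) F V := b.mapCoeffs φ fun c x => (hφ c x).symm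
  rw [← LinearMap.det_toMatrix b, ← LinearMap.det_toMatrix b', RingEquiv.map_det]
  congr 1
  ext i j
  rw [RingEquiv.mapMatrix_apply, Matrix.map_apply, LinearMap.toMatrix_apply, LinearMap.toMatrix_apply, h,
    show b' j = b j from Basis.mapCoeffs_apply _ _ _ _]
  rfl

theorem card_sl213 : Nat.card (Matrix.SpecialLinearGroup (Fin 2) (ZMod 13)) = 2184 := by
  have : Fact (Nat.Prime 13) := ⟨by norm_num⟩
  have h := Cfsg.Agent.S0242.result (F := ZMod 13) (q := 13) (ZMod.card 13) 2 (by norm_num)
  rw [Fin.prod_univ_two] at h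
  have h2 : (13 ^ 2 - 13 ^ ((0 : Fin 2) : ℕ)) * (13 ^ 2 - 13 ^ ((1 : Fin 2) : ℕ)) = 26208 := by decide
  rw [h2] at h
  omega

theorem card_sp42 : Nat.card (Matrix.symplecticGroup (Fin 2) (ZMod 2)) = 720 := by
  have h := Cfsg.Agent.S0245.result (F := ZMod 2) (q := 2) (ZMod.card 2) 2
  rw [h]
  simp [Finset.prod_range_succ]

/-- the semilinear group of the field -/
theorem concl_le {q n : ℕ} {V : Type u} [AddCommGroup V] [Finite V] {H : Subgroup (Equiv.Perm V)}
    (hadd : ∀ h ∈ H, ∀ v w : V, h (v + w) = h v + h w)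
    (h : Cfsg.Agent.H667.HerFin.ConclTwo q n H) {p f : ℕ} [Fact p.Prime] (hq : q = p ^ f) (hnf : 1 ≤ n * f) :
    (Nat.card H).factorization p ≤ (n * f).factorization p := by
  obtain ⟨F, iF, iF', e, hc, h⟩ := h
  let iM : Module F V :=
    { smul := fun c v => e.symm (c * e v)
      one_smul := fun v => by
        change e.symm (1 * e v) = v
        rw [one_mul, e.symm_apply_apply]
      mul_smul := fun c d v => by
        change e.symm (c * d * e v) = e.symm (c * e (e.symm (d * e v)))
        rw [e.apply_symm_apply, mul_assoc]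
      smul_zero := fun c => by
        change e.symm (c * e 0) = 0
        rw [map_zero, mul_zero, map_zero]
      smul_add := fun c v w => by
        change e.symm (c * e (v + w)) = e.symm (c * e v) + e.symm (c * e w)
        rw [map_add, mul_add, map_add]
      add_smul := fun c d v => by
        change e.symm ((c + d) * e v) = e.symm (c * e v) + e.symm (d * e v)
        rw [add_mul, map_add]
      zero_smul := fun v => by
        change e.symm (0 * e v) = 0
        rw [zero_mul, map_zero] }
  have hsm : ∀ (c : F) (v : V), e (c • v) = c * e v := fun c v => e.apply_symm_apply _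
  have hSL : SL F H := by
    refine ⟨hadd, fun x hx => ?_⟩
    obtain ⟨c, σ, hσ⟩ := h x hx
    refine ⟨σ, fun d v => e.injective ?_⟩
    rw [hσ, hsm, hsm, hσ, map_mul]
    ring
  have h1 : finrank F V = 1 := by
    let E : V ≃ₗ[F] F := { e with map_smul' := fun c v => hsm c v }
    rw [E.finrank_eq, Module.finrank_self]
  have h2 := semi_le hSL (p := p) (g := n * f) hnf (by rw [hc, hq, ← pow_mul, mul_comm]) h1 le_rfl
  simpa using h2

theorem tri (a : ℕ) : 2 * (a * (a - 1) / 2) = a * (a - 1) := by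
  refine Nat.mul_div_cancel' ?_
  rcases a with _ | a
  · simp
  · rw [Nat.add_sub_cancel, mul_comm]
    exact (Nat.even_mul_succ_self a).two_dvd

/-- **Hering's theorem and the `p`-part.** -/
theorem her_of (main : Cfsg.Agent.H667.HerFin.Main.{u}) (h6 : Cfsg.Agent.H667.HerFin.AltSix.{u})
    (h7 : Cfsg.Agent.H667.HerFin.AltSeven.{u}) (h13 : Cfsg.Agent.H667.HerFin.Thirteen.{u})
    {K : Type*} {V : Type u} [Field K] [Fintype K] [AddCommGroup V] [Module K V] [Finite V] {p f n : ℕ}
    (hp : p.Prime) (hK : Fintype.card K = p ^ f) (hn : finrank K V = n) (hn3 : 3 ≤ n)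
    (H : Subgroup (Equiv.Perm V)) (hadd : ∀ h ∈ H, ∀ v w : V, h (v + w) = h v + h w)
    (hsemi : ∀ h ∈ H, ∃ σ : K ≃+* K, ∀ (c : K) (v : V), h (c • v) = σ c • h v)
    (htrans : ∀ v w : V, v ≠ 0 → w ≠ 0 → ∃ h ∈ H, ∃ c : K, h v = c • w) :
    (∀ g : V ≃ₗ[K] V, LinearEquiv.det g = 1 → ∃ h ∈ H, ∀ v, h v = g v) ∨
    (Nat.card H).factorization p ≤ (n * f).factorization p ∨
    (∃ a b : ℕ, a * b = n ∧ 2 ≤ a ∧ 2 ≤ b ∧
      (Nat.card H).factorization p ≤ f * (n * (a - 1) / 2) + (b * f).factorization p) ∨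
    (Even n ∧ (Nat.card H).factorization p ≤ f * (n ^ 2 / 4) + f.factorization p) := by
  have : Fact p.Prime := ⟨hp⟩
  have hf0 : f ≠ 0 := by
    rintro rfl
    rw [pow_zero] at hK
    have := Fintype.one_lt_card (α := K)
    omega
  have hfp : Module.Finite K V := Module.Finite.of_finite
  rcases Cfsg.Agent.H667.HerFin.action_of_main main h6 h7 h13 (p ^ f) n hK hn (by omega) H hadd hsemi htrans with
    h | h | h
  · exact Or.inr (Or.inl (concl_le hadd h rfl (Nat.mul_pos (by omega) (by omega))))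
  · obtain ⟨F, iF, iF', iM, φ, b, hφ, h2, hc, hb, hsem, hcase⟩ := h
    have hSL : SL F H := ⟨hadd, hsem⟩
    have hb0 : b ≠ 0 := by
      rintro rfl
      rw [mul_zero] at hb
      omega
    have hcF : Fintype.card F = p ^ (b * f) := by rw [hc, ← pow_mul, mul_comm]
    by_cases hb1 : b = 1
    · subst hb1
      rw [mul_one] at hb
      rw [pow_one] at hc
      rw [one_mul] at hcF
      have hsp : ∀ f' : LinearMap.BilinForm F V, f'.IsAlt → f'.Nondegenerate →
          (∀ h ∈ H, ∀ σ : F ≃+* F, (∀ (c : F) (v : V), h (c • v) = σ c • h v) →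
            ∃ μ : F, ∀ u v, f' (h u) (h v) = μ * σ (f' u v)) →
          (Even n ∧ (Nat.card H).factorization p ≤ f * (n ^ 2 / 4) + f.factorization p) := by
        intro f' ha hnd hs
        have hfF : Module.Finite F V := Module.Finite.of_finite
        obtain ⟨m, bb, hm, -⟩ := Cfsg.Agent.H177.InvolOrth.exists_symplectic_basis f' ha hnd
        have hm' : finrank F V = 2 * m := by omega
        have h3 := symp_le hSL (p := p) (g := f) (r := m) (by omega) hcF hm' (by omega) f' ha hnd hs
        have hnm : n = 2 * m := by omega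
        refine ⟨⟨m, by omega⟩, ?_⟩
        have h4 : n ^ 2 / 4 = m ^ 2 := by
          rw [hnm, show (2 * m) ^ 2 = m ^ 2 * 4 by ring, Nat.mul_div_cancel _ (by norm_num)]
        rw [h4]
        exact h3
      rcases hcase with h1 | ⟨f', ha, hn', -, hs⟩ | ⟨-, -, -, f', ha, hn', hs, -⟩
      · left
        have hbij : Function.Bijective φ :=
          (Fintype.bijective_iff_injective_and_card φ).2 ⟨φ.injective, by rw [hc, hK]⟩
        let Φ : K ≃+* F := RingEquiv.ofBijective φ hbij
        have hΦ : ∀ (c : K) (v : V), c • v = Φ c • v := hφ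
        have hΦ' : ∀ (c : F) (v : V), Φ.symm c • v = c • v := fun c v => by
          rw [hΦ, RingEquiv.apply_symm_apply]
        intro g hg
        have hlin : ∀ (c : F) (v : V), g (c • v) = c • g v := fun c v => by rw [← hΦ', map_smul, hΦ']
        let g' : V ≃ₗ[F] V := { g with map_smul' := hlin }
        obtain ⟨h, hh, e⟩ := h1 g' (by
          apply Units.ext
          have hg' : LinearMap.det (g : V →ₗ[K] V) = 1 := by
            rw [← LinearEquiv.coe_det, hg, Units.val_one]
          rw [LinearEquiv.coe_det, det_transport Φ hΦ (g : V →ₗ[K] V) (g' : V →ₗ[F] V) (fun v => rfl), hg', map_one]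
          rfl)
        exact ⟨h, hh, e⟩
      · exact Or.inr (Or.inr (Or.inr (hsp f' ha hn' hs)))
      · exact Or.inr (Or.inr (Or.inr (hsp f' ha hn' hs)))
    · refine Or.inr (Or.inr (Or.inl ⟨finrank F V, b, hb, h2, by omega, ?_⟩))
      have h3 := semi_le hSL (p := p) (g := b * f) (a := finrank F V) (Nat.mul_pos (by omega) (by omega)) hcF rfl
        (by omega)
      have h4 : b * f * (finrank F V * (finrank F V - 1) / 2) = f * (n * (finrank F V - 1) / 2) := by
        have h5 := tri (finrank F V)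
        have h6 : n * (finrank F V - 1) / 2 = b * (finrank F V * (finrank F V - 1) / 2) := by
          rw [← hb]
          have h7 : finrank F V * b * (finrank F V - 1) = b * (finrank F V * (finrank F V - 1) / 2) * 2 := by
            rw [mul_assoc b, mul_comm _ 2, h5]
            ring
          rw [h7, Nat.mul_div_cancel _ (by norm_num)]
        rw [h6]
        ring
      rwa [h4] at h3
  · right
    right
    right
    rcases h with ⟨h, -⟩ | ⟨h, -⟩ | ⟨hn4, hq2, h⟩ | ⟨hn4, hq3, h⟩ | ⟨hn6, hq3, ⟨e⟩⟩ | ⟨hn6, hq2, E, iE, iE', hE, N, hN, ⟨e⟩⟩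
    · omega
    · omega
    · have hp2 : p = 2 := (Nat.prime_dvd_prime_iff_eq hp Nat.prime_two).1 (by rw [← hq2]; exact dvd_pow_self p hf0)
      subst hp2
      subst hn4
      refine ⟨by decide, ?_⟩
      have h4 : (Nat.card H).factorization 2 ≤ 4 := by
        have key : ∀ m : ℕ, m ≠ 0 → ¬ 2 ^ 5 ∣ m → m.factorization 2 ≤ 4 := by
          intro m hm hd
          by_contra hcon
          exact hd ((Nat.prime_two.pow_dvd_iff_le_factorization hm).2 (by omega))
        rcases h with ⟨⟨e⟩⟩ | ⟨⟨e⟩⟩ | ⟨⟨e⟩⟩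
        · rw [Nat.card_congr e.toEquiv]
          have h1 : Nat.card (alternatingGroup (Fin 6)) = 360 := by
            rw [nat_card_alternatingGroup, Nat.card_eq_fintype_card, Fintype.card_fin]
            rfl
          rw [h1]
          exact key _ (by norm_num) (by norm_num)
        · rw [Nat.card_congr e.toEquiv]
          have h1 : Nat.card (alternatingGroup (Fin 7)) = 2520 := by
            rw [nat_card_alternatingGroup, Nat.card_eq_fintype_card, Fintype.card_fin]
            rfl
          rw [h1]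
          exact key _ (by norm_num) (by norm_num)
        · rw [Nat.card_congr e.toEquiv, card_sp42]
          exact key _ (by norm_num) (by norm_num)
      have h5 : 1 ≤ f := by omega
      calc (Nat.card H).factorization 2 ≤ 4 := h4
        _ ≤ f * (4 ^ 2 / 4) + f.factorization 2 := by omega
    · have hp3 : p = 3 := (Nat.prime_dvd_prime_iff_eq hp Nat.prime_three).1 (by rw [← hq3]; exact dvd_pow_self p hf0)
      subst hp3
      subst hn4
      refine ⟨by decide, ?_⟩
      have h4 : (Nat.card H).factorization 3 ≤ 4 := by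
        rcases h with ⟨N, -, -, hd⟩ | ⟨N, hN, ⟨e⟩⟩
        · by_contra hcon
          have h1 : 3 ^ 5 ∣ Nat.card H := (Nat.prime_three.pow_dvd_iff_le_factorization Nat.card_pos.ne').2 (by omega)
          have h2 := h1.trans hd
          norm_num at h2
        · exact four_three ⟨hadd, hsemi⟩ (by rw [hK, hq3]) hn N e
      have h5 : 1 ≤ f := by omega
      calc (Nat.card H).factorization 3 ≤ 4 := h4
        _ ≤ f * (4 ^ 2 / 4) + f.factorization 3 := by omega
    · have hp3 : p = 3 := (Nat.prime_dvd_prime_iff_eq hp Nat.prime_three).1 (by rw [← hq3]; exact dvd_pow_self p hf0)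
      subst hp3
      subst hn6
      refine ⟨by decide, ?_⟩
      have h4 : (Nat.card H).factorization 3 ≤ 4 := by
        rw [Nat.card_congr e.toEquiv, card_sl213]
        by_contra hcon
        have h1 : 3 ^ 5 ∣ 2184 := (Nat.prime_three.pow_dvd_iff_le_factorization (by norm_num)).2 (by omega)
        norm_num at h1
      have h5 : 1 ≤ f := by omega
      calc (Nat.card H).factorization 3 ≤ 4 := h4
        _ ≤ f * (6 ^ 2 / 4) + f.factorization 3 := by omega
    · have hp2 : p = 2 := (Nat.prime_dvd_prime_iff_eq hp Nat.prime_two).1 (by rw [← hq2]; exact dvd_pow_self p hf0)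
      subst hp2
      subst hn6
      refine ⟨by decide, ?_⟩
      have h4 := six_two ⟨hadd, hsemi⟩ (by rw [hK, hq2]) hn hE N e
      have h5 : 1 ≤ f := by omega
      calc (Nat.card H).factorization 2 ≤ 6 := h4
        _ ≤ f * (6 ^ 2 / 4) + f.factorization 2 := by omega

/-- `2 v_p(m) ≤ m` -/
theorem two_mul_fac_le {p m : ℕ} (hp : p.Prime) (hm : m ≠ 0) : 2 * m.factorization p ≤ m := by
  have h1 : p ^ m.factorization p ≤ m := Nat.ordProj_le p hm
  have h2 : 2 ^ m.factorization p ≤ p ^ m.factorization p := Nat.pow_le_pow_left hp.two_le _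
  have h3 : ∀ v : ℕ, 2 * v ≤ 2 ^ v := by
    intro v
    induction v with
    | zero => simp
    | succ v ih =>
      rw [pow_succ]
      rcases Nat.eq_zero_or_pos v with rfl | hv
      · norm_num
      · have : 2 ≤ 2 ^ v := by
          calc 2 = 2 ^ 1 := (pow_one 2).symm
            _ ≤ 2 ^ v := Nat.pow_le_pow_right (by norm_num) hv
        omega
  exact (h3 _).trans (h2.trans h1)

/-- **the numerical consequence** -/
theorem lt_of' {p f n n₀ N : ℕ} (hp : p.Prime) (hf : 1 ≤ f) (hn3 : 3 ≤ n) (hn₀ : 2 * n₀ + 1 ≤ n)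
    (h : N ≤ (n * f).factorization p ∨
      (∃ a b : ℕ, a * b = n ∧ 2 ≤ a ∧ 2 ≤ b ∧ N ≤ f * (n * (a - 1) / 2) + (b * f).factorization p) ∨
      (Even n ∧ N ≤ f * (n ^ 2 / 4) + f.factorization p)) :
    N + f * (n₀ * (n₀ - 1) / 2) + f < f * (n * (n - 1) / 2) := by
  have t1 := tri n₀
  have t2 := tri n
  set A := n₀ * (n₀ - 1) / 2 with hA
  set B := n * (n - 1) / 2 with hB
  -- `8 A ≤ (n - 1) (n - 3)`
  obtain ⟨m, rfl⟩ : ∃ m, n = m + 3 := ⟨n - 3, by omega⟩
  have hB' : 2 * B = (m + 3) * (m + 2) := t2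
  have hA' : 8 * A ≤ (m + 2) * m := by
    rcases Nat.eq_zero_or_pos n₀ with h0 | h0
    · rw [h0, Nat.zero_mul] at t1
      have : A = 0 := by omega
      rw [this]
      positivity
    · obtain ⟨k, rfl⟩ : ∃ k, n₀ = k + 1 := ⟨n₀ - 1, by omega⟩
      rw [Nat.add_sub_cancel] at t1
      have h1 : 2 * k ≤ m := by omega
      have h2 : 8 * A = (2 * k + 2) * (2 * k) := by linear_combination 4 * t1
      rw [h2]
      exact Nat.mul_le_mul (by omega) h1
  rcases h with h | ⟨a, b, hab, ha, hb, h⟩ | ⟨⟨k, hk⟩, h⟩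
  · have v1 := two_mul_fac_le hp (show (m + 3) * f ≠ 0 by positivity)
    have h1 : 2 * N ≤ (m + 3) * f := by omega
    nlinarith [Nat.mul_le_mul_left f hA', hf, Nat.zero_le m, mul_comm f m]
  · have v1 := two_mul_fac_le hp (show b * f ≠ 0 from Nat.mul_ne_zero (by omega) (by omega))
    have h1 : 2 * ((m + 3) * (a - 1) / 2) ≤ (m + 3) * (a - 1) := Nat.mul_div_le _ _
    have h2 : 2 * b ≤ m + 3 := by rw [← hab]; exact Nat.mul_le_mul_right _ ha
    have h3 : 2 * a ≤ m + 3 := by rw [← hab, mul_comm a]; exact Nat.mul_le_mul_right _ hb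
    obtain ⟨c, rfl⟩ : ∃ c, a = c + 1 := ⟨a - 1, by omega⟩
    rw [Nat.add_sub_cancel] at h h1
    set C := (m + 3) * c / 2 with hC
    have h4 : 4 * C ≤ (m + 3) * (m + 1) := by
      have : 2 * c ≤ m + 1 := by omega
      nlinarith
    have h5 : 2 * (b * f) ≤ (m + 3) * f := by rw [← mul_assoc]; exact Nat.mul_le_mul_right _ h2
    have hm1 : 1 ≤ m := by
      have : 2 * 2 ≤ m + 3 := by rw [← hab]; exact Nat.mul_le_mul ha hb
      omega
    have h6 : 4 * N ≤ f * ((m + 3) * (m + 1)) + (m + 3) * f := by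
      have := Nat.mul_le_mul_left f h4
      nlinarith
    have h7 := Nat.mul_le_mul_left f hA'
    have h8 : 2 * (f * B) = f * ((m + 3) * (m + 2)) := by rw [← hB']; ring
    nlinarith [Nat.mul_le_mul hf hm1, Nat.mul_le_mul_right m hf, Nat.mul_le_mul_right (m * m) hf]
  · have v1 := two_mul_fac_le hp (show f ≠ 0 by omega)
    have h1 : (m + 3) ^ 2 / 4 = k ^ 2 := by
      rw [hk, show (k + k) ^ 2 = k ^ 2 * 4 by ring, Nat.mul_div_cancel _ (by norm_num)]
    rw [h1] at h
    have hk2 : 2 ≤ k := by omega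
    obtain ⟨j, rfl⟩ : ∃ j, k = j + 2 := ⟨k - 2, by omega⟩
    have hm : m = 2 * j + 1 := by omega
    have h0 : n₀ ≤ j + 1 := by omega
    have h2 : 2 * A ≤ (j + 1) * j := by
      rw [t1]
      exact Nat.mul_le_mul h0 (by omega)
    have h3 : 2 * B = (2 * j + 4) * (2 * j + 3) := by rw [hB', hm]
    have h4 : 2 * N ≤ 2 * (f * (j + 2) ^ 2) + f := by omega
    have h5 := Nat.mul_le_mul_left f h2
    have h6 : 2 * (f * B) = f * ((2 * j + 4) * (2 * j + 3)) := by rw [← h3]; ring
    nlinarith [Nat.mul_le_mul_right j hf, Nat.mul_le_mul_right (j * j) hf]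

theorem lt_of {p f n n₀ N : ℕ} (hp : p.Prime) (hf : 1 ≤ f) (hn3 : 3 ≤ n) (hn₀ : 2 * n₀ + 1 ≤ n)
    (h : N ≤ (n * f).factorization p ∨
      (∃ a b : ℕ, a * b = n ∧ 2 ≤ a ∧ 2 ≤ b ∧ N ≤ f * (n * (a - 1) / 2) + (b * f).factorization p) ∨
      (Even n ∧ N ≤ f * (n ^ 2 / 4) + f.factorization p)) :
    N + f * (n₀ * (n₀ - 1) / 2) + (2 * f).factorization p < f * (n * (n - 1) / 2) := by
  have h1 := lt_of' hp hf hn3 hn₀ h
  have v2 := two_mul_fac_le hp (show 2 * f ≠ 0 by omega)
  omega

end Cfsg.Agent.H783.Her
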