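import Cfsg.Agent.H783.Her.Main
import Cfsg.Agent.H506.DPL.Defs

/-!
# S4247, row `[L]`: the statement `StLH` (helper783)
-/

set_option autoImplicit false

namespace Cfsg.Agent.H783.Her

open Module Cfsg.Agent.H506.DPL

theorem two_mul_le_pow {p : ℕ} (hp : p.Prime) {a : ℕ} (ha : 1 ≤ a) : 2 * a ≤ p ^ a := by
  have h2 : 2 ^ a ≤ p ^ a := Nat.pow_le_pow_left hp.two_le a
  refine le_trans ?_ h2
  induction a, ha using Nat.le_induction with
  | base => norm_num
  | succ a ha ih =>
    rw [pow_succ]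
    have := ih (Nat.pow_le_pow_left hp.two_le a)
    omega

/-- **`StLH`**, from the main theorem of Hering's classification -/
theorem st_lh_of (main : Cfsg.Agent.H667.HerFin.Main.{0}) (h6 : Cfsg.Agent.H667.HerFin.AltSix.{0})
    (h7 : Cfsg.Agent.H667.HerFin.AltSeven.{0}) (h13 : Cfsg.Agent.H667.HerFin.Thirteen.{0}) : StLH := by
  intro p a F _ _ n n0 j H hp hF hn3 hn0 hH htr hSL hj
  have ha : 1 ≤ a := by
    rcases Nat.eq_zero_or_pos a with rfl | h
    · rw [pow_zero] at hF
      have := Fintype.one_lt_card (α := F)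
      omega
    · exact h
  have hfin : finrank F (Fin n → F) = n := by rw [Module.finrank_fin_fun]
  have h1 := (her_of main h6 h7 h13 hp hF hfin hn3 H (fun h hh => (hH hh).1) (fun h hh => (hH hh).2) htr).resolve_left hSL
  have h2 := lt_of' hp ha hn3 hn0 h1
  have h3 : j ≤ (Nat.card H).factorization p := (hp.pow_dvd_iff_le_factorization Nat.card_pos.ne').1 hj
  have h4 := two_mul_le_pow hp ha
  rw [hF, ← pow_mul, ← pow_mul]
  calc p ^ j * p ^ (a * (n0 * (n0 - 1) / 2)) * (2 * a) ≤ p ^ j * p ^ (a * (n0 * (n0 - 1) / 2)) * p ^ a :=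
        Nat.mul_le_mul_left _ h4
    _ = p ^ (j + a * (n0 * (n0 - 1) / 2) + a) := by rw [pow_add, pow_add]
    _ < p ^ (a * (n * (n - 1) / 2)) := Nat.pow_lt_pow_right hp.one_lt (by omega)

end Cfsg.Agent.H783.Her
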